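import Groth.Agent.Pic13.H116.Tw
import Groth.Agent.S1524

/-!
# Dimensions of `H^0` and Euler characteristics in exact sequences

`hz k F = dim_k H^0(X, F)`; `hz_left_le`, `hz_mid_le`, `chi_add`, `chi_eq_hz`, `chi_le_hz`.
-/

set_option autoImplicit false
universe u
open CategoryTheory CategoryTheory.Limits AlgebraicGeometry TopologicalSpace

namespace Groth.Agent.Pic13.H116.Num

open Groth.Agent.Grpsch.PicGrp Groth.Agent.Pic13.H116.Tw Groth.Agent.VarietyA.EulerAdd Groth.Agent.VarietyA.EulerLES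

variable (k : Type u) [Field k] {X : Scheme.{u}} [X.Over (Spec (CommRingCat.of k))]

/-- `dim H^0(X, F)`. -/
noncomputable def hz (F : X.Modules) : ℕ := Module.finrank k (Coh.HH X F 0)

theorem hz_iso {F G : X.Modules} (e : F ≅ G) : hz k F = hz k G := (equivA k e 0).finrank_eq

theorem chi_iso {F G : X.Modules} (e : F ≅ G) : Curv2.euler k X F = Curv2.euler k X G := euler_congr k e

theorem chi_isZero {F : X.Modules} (hF : IsZero F) : Curv2.euler k X F = 0 := by
  rw [euler_eq_sum k F 0 fun i _ => Fga.HShift.subsingleton_of_isZero hF i]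
  simp

theorem hz_isZero {F : X.Modules} (hF : IsZero F) : hz k F = 0 := by
  have := Fga.HShift.subsingleton_of_isZero hF 0
  exact Module.finrank_zero_of_subsingleton

theorem chi_eq_hz {F : X.Modules} (h : ∀ i : ℕ, 1 ≤ i → Subsingleton (Coh.HH X F i)) :
    Curv2.euler k X F = hz k F := by
  rw [euler_eq_sum k F 1 h]
  simp [hz]

theorem chi_le_hz {F : X.Modules} (h : ∀ i : ℕ, 2 ≤ i → Subsingleton (Coh.HH X F i)) :
    Curv2.euler k X F ≤ hz k F := by
  rw [euler_eq_sum k F 2 h]
  simp [Finset.sum_range_succ, hz]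

variable [IsProper (X ↘ Spec (CommRingCat.of k))]

theorem finite_HH {F : X.Modules} (hF : Coh.IsCoh F) (i : ℕ) : Module.Finite k (Coh.HH X F i) :=
  S0002.result k X F hF i

theorem chi_add {S : ShortComplex X.Modules} (hS : S.ShortExact) (h1 : Coh.IsCoh S.X₁) (h2 : Coh.IsCoh S.X₂)
    (h3 : Coh.IsCoh S.X₃) : Curv2.euler k X S.X₂ = Curv2.euler k X S.X₁ + Curv2.euler k X S.X₃ :=
  S1524.result k X S hS h1 h2 h3

theorem hz_left_le {S : ShortComplex X.Modules} (hS : S.ShortExact) (h2 : Coh.IsCoh S.X₂) :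
    hz k S.X₁ ≤ hz k S.X₂ := by
  have := finite_HH k h2 0
  unfold hz
  rw [finrank_eq₀ k S hS]
  exact Submodule.finrank_le _

theorem hz_mid_le {S : ShortComplex X.Modules} (hS : S.ShortExact) (h2 : Coh.IsCoh S.X₂) (h3 : Coh.IsCoh S.X₃) :
    hz k S.X₂ ≤ hz k S.X₁ + hz k S.X₃ := by
  have := finite_HH k h2 0
  have := finite_HH k h3 0
  unfold hz
  rw [finrank_eq k S hS 0, finrank_eq₀ k S hS]
  exact Nat.add_le_add_left (Submodule.finrank_le _) _

end Groth.Agent.Pic13.H116.Num
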