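import Groth.Agent.Pic13.H116.Num

/-!
# Short exact sequences up to isomorphism

`SE A B C`: there is a short exact sequence `0 → A → B → C → 0` (up to isomorphism). Twists, Euler characteristics,
dimensions of `H^0`, vanishing.
-/

set_option autoImplicit false
set_option linter.dupNamespace false
universe u
open CategoryTheory CategoryTheory.Limits AlgebraicGeometry TopologicalSpace

namespace Groth.Agent.Pic13.H116.SE

open Groth.Agent.Grpsch.PicGrp Groth.Agent.Pic13.H116.Tw Groth.Agent.Pic13.H116.Num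

section

variable {X : Scheme.{u}}

/-- There is a short exact sequence `0 → A → B → C → 0`. -/
def SE (A B C : X.Modules) : Prop :=
  ∃ S : ShortComplex X.Modules, S.ShortExact ∧ Nonempty (S.X₁ ≅ A) ∧ Nonempty (S.X₂ ≅ B) ∧ Nonempty (S.X₃ ≅ C)

theorem SE.of {S : ShortComplex X.Modules} (hS : S.ShortExact) : SE S.X₁ S.X₂ S.X₃ :=
  ⟨S, hS, ⟨Iso.refl _⟩, ⟨Iso.refl _⟩, ⟨Iso.refl _⟩⟩

variable {A B C A' B' C' : X.Modules}

theorem SE.congr (h : SE A B C) (e1 : Nonempty (A ≅ A')) (e2 : Nonempty (B ≅ B')) (e3 : Nonempty (C ≅ C')) :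
    SE A' B' C' := by
  obtain ⟨S, hS, ⟨i1⟩, ⟨i2⟩, ⟨i3⟩⟩ := h
  exact ⟨S, hS, ⟨i1 ≪≫ e1.some⟩, ⟨i2 ≪≫ e2.some⟩, ⟨i3 ≪≫ e3.some⟩⟩

theorem SE.of_mono (f : A ⟶ B) [Mono f] : SE A B (cokernel f) :=
  SE.of (S := ShortComplex.mk f (cokernel.π f) (cokernel.condition f))
    { exact := ShortComplex.exact_cokernel _
      mono_f := inferInstance
      epi_g := inferInstanceAs (Epi (cokernel.π f)) }

theorem SE.of_epi (f : A ⟶ B) [Epi f] : SE (kernel f) A B :=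
  SE.of (S := ShortComplex.mk (kernel.ι f) f (kernel.condition f))
    { exact := ShortComplex.exact_kernel f
      mono_f := inferInstanceAs (Mono (kernel.ι f))
      epi_g := inferInstance }

theorem SE.tw (h : SE A B C) (b : Pic X) : SE (tw b A) (tw b B) (tw b C) := by
  obtain ⟨S, hS, ⟨i1⟩, ⟨i2⟩, ⟨i3⟩⟩ := h
  exact ⟨twS b S, tw_shortExact b hS, tw_iso b i1, tw_iso b i2, tw_iso b i3⟩

/-- An exact sequence of the form `0 → F → c ⊗ F → C → 0`, twisted. -/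
theorem SE.tw_cut {F : X.Modules} {c : Pic X} (h : SE F (Tw.tw c F) C) (b : Pic X) :
    SE (Tw.tw b F) (Tw.tw (b * c) F) (Tw.tw b C) :=
  (h.tw b).congr ⟨Iso.refl _⟩ ⟨(tw_mul b c F).some.symm⟩ ⟨Iso.refl _⟩

theorem SE.unit_cut {c : Pic X} (h : SE (Coh.structureModule X) (rep c) C) (b : Pic X) :
    SE (rep b) (rep (b * c)) (Tw.tw b C) :=
  (h.tw b).congr (tw_unit b) (tw_rep b c) ⟨Iso.refl _⟩

theorem SE.van₁ (h : SE A B C) (q : ℕ) (h3 : Subsingleton (Coh.HH X C q)) (h2 : Subsingleton (Coh.HH X B (q + 1))) :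
    Subsingleton (Coh.HH X A (q + 1)) := by
  obtain ⟨S, hS, ⟨i1⟩, ⟨i2⟩, ⟨i3⟩⟩ := h
  exact Fga.HShift.subsingleton_of_iso i1 _ (Fga.HShift.subsingleton₁ hS q
    (Fga.HShift.subsingleton_of_iso i3.symm _ h3) (Fga.HShift.subsingleton_of_iso i2.symm _ h2))

theorem SE.van₂ (h : SE A B C) (q : ℕ) (h1 : Subsingleton (Coh.HH X A q)) (h3 : Subsingleton (Coh.HH X C q)) :
    Subsingleton (Coh.HH X B q) := by
  obtain ⟨S, hS, ⟨i1⟩, ⟨i2⟩, ⟨i3⟩⟩ := h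
  exact Fga.HShift.subsingleton_of_iso i2 _ (Fga.HShift.subsingleton₂ hS q
    (Fga.HShift.subsingleton_of_iso i1.symm _ h1) (Fga.HShift.subsingleton_of_iso i3.symm _ h3))

theorem SE.van₃ (h : SE A B C) (q : ℕ) (h2 : Subsingleton (Coh.HH X B q)) (h1 : Subsingleton (Coh.HH X A (q + 1))) :
    Subsingleton (Coh.HH X C q) := by
  obtain ⟨S, hS, ⟨i1⟩, ⟨i2⟩, ⟨i3⟩⟩ := h
  exact Fga.HShift.subsingleton_of_iso i3 _ (Fga.HShift.subsingleton₃ hS q
    (Fga.HShift.subsingleton_of_iso i2.symm _ h2) (Fga.HShift.subsingleton_of_iso i1.symm _ h1))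

end

section

variable (k : Type u) [Field k] {X : Scheme.{u}} [X.Over (Spec (CommRingCat.of k))]
  [IsProper (X ↘ Spec (CommRingCat.of k))] {A B C : X.Modules}

theorem SE.chi (h : SE A B C) (h1 : Coh.IsCoh A) (h2 : Coh.IsCoh B) (h3 : Coh.IsCoh C) :
    Curv2.euler k X B = Curv2.euler k X A + Curv2.euler k X C := by
  obtain ⟨S, hS, ⟨i1⟩, ⟨i2⟩, ⟨i3⟩⟩ := h
  rw [← chi_iso k i1, ← chi_iso k i2, ← chi_iso k i3]
  exact chi_add k hS (Sga67.CohBasic.isCoh_of_iso i1.symm h1) (Sga67.CohBasic.isCoh_of_iso i2.symm h2)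
    (Sga67.CohBasic.isCoh_of_iso i3.symm h3)

theorem SE.hz_left_le (h : SE A B C) (h2 : Coh.IsCoh B) : hz k A ≤ hz k B := by
  obtain ⟨S, hS, ⟨i1⟩, ⟨i2⟩, ⟨i3⟩⟩ := h
  rw [← hz_iso k i1, ← hz_iso k i2]
  exact Num.hz_left_le k hS (Sga67.CohBasic.isCoh_of_iso i2.symm h2)

theorem SE.hz_mid_le (h : SE A B C) (h2 : Coh.IsCoh B) (h3 : Coh.IsCoh C) : hz k B ≤ hz k A + hz k C := by
  obtain ⟨S, hS, ⟨i1⟩, ⟨i2⟩, ⟨i3⟩⟩ := h
  rw [← hz_iso k i1, ← hz_iso k i2, ← hz_iso k i3]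
  exact Num.hz_mid_le k hS (Sga67.CohBasic.isCoh_of_iso i2.symm h2)
    (Sga67.CohBasic.isCoh_of_iso i3.symm h3)

end

end Groth.Agent.Pic13.H116.SE
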