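import Groth.Agent.VarietyA.EulerAdd
import Groth.Agent.Fga.TwistCoh
import Groth.Agent.Fga.EulerLEAdd
import Groth.Agent.Fga.HShift
import Groth.Agent.Grpsch.PicGrp
import Groth.Agent.Sga67.CohBasic
import Groth.Agent.S0002
import Groth.Agent.Fdesc.StructMod

/-!
# Twists by classes of invertible modules

`tw a F = a ⊗ F` for `a : Pic X` (a representative is chosen): `tw_one`, `tw_mul`, `tw_unit`, exactness
`tw_shortExact`, coherence `tw_coh`; the numbers `hz k F = dim H^0(X, F)` and `Curv2.euler k X F` in exact sequences.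
-/

set_option autoImplicit false
universe u
open CategoryTheory CategoryTheory.Limits AlgebraicGeometry TopologicalSpace

namespace Groth.Agent.Pic13.H116.Tw

open Groth.Agent.Grpsch.PicGrp Groth.Agent.Fdesc.LocGen Groth.Agent.Ega2

section Basic

variable {X : Scheme.{u}}

/-- A representative of a class. -/
noncomputable def rep (a : Pic X) : X.Modules := (exists_mk a).choose

theorem rep_inv (a : Pic X) : PicF.IsInvertible (rep a) := (exists_mk a).choose_spec.choose

theorem mk_rep (a : Pic X) : mk (rep a) (rep_inv a) = a := (exists_mk a).choose_spec.choose_spec.symm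

theorem rep_mk {L : X.Modules} (hL : PicF.IsInvertible L) : Nonempty (rep (mk L hL) ≅ L) :=
  (mk_eq_iff _ _).1 (mk_rep _)

/-- `F ↦ a ⊗ F`. -/
noncomputable def tw (a : Pic X) (F : X.Modules) : X.Modules := CohB1.tensorMod (rep a) F

theorem tw_iso (a : Pic X) {F G : X.Modules} (e : F ≅ G) : Nonempty (tw a F ≅ tw a G) :=
  ⟨Tens.mapTIso (Iso.refl _) e⟩

theorem tw_mk {L : X.Modules} (hL : PicF.IsInvertible L) (F : X.Modules) :
    Nonempty (tw (mk L hL) F ≅ CohB1.tensorMod L F) := by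
  obtain ⟨e⟩ := rep_mk hL
  exact ⟨Tens.mapTIso e (Iso.refl F)⟩

theorem tw_mk' {L : X.Modules} (hL : PicF.IsInvertible L) (F : X.Modules) :
    Nonempty (tw (mk L hL) F ≅ CohB1.tensorMod F L) := by
  obtain ⟨e⟩ := tw_mk hL F
  exact ⟨e ≪≫ Tens.swap L F⟩

theorem tw_one (F : X.Modules) : Nonempty (tw 1 F ≅ F) := by
  obtain ⟨e⟩ := tw_mk (X := X) isInvertible_structureModule F
  exact ⟨e ≪≫ Tens.lunit F⟩

theorem tw_mul (a b : Pic X) (F : X.Modules) : Nonempty (tw (a * b) F ≅ tw a (tw b F)) := by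
  have h : a * b = mk (CohB1.tensorMod (rep a) (rep b)) (isInvertible_tensorMod (rep_inv a) (rep_inv b)) := by
    rw [← mk_mul_mk (rep_inv a) (rep_inv b), mk_rep, mk_rep]
  rw [h]
  obtain ⟨e⟩ := tw_mk (isInvertible_tensorMod (rep_inv a) (rep_inv b)) F
  exact ⟨e ≪≫ Tens.assoc _ _ _⟩

theorem tw_unit (a : Pic X) : Nonempty (tw a (Coh.structureModule X) ≅ rep a) := ⟨Tens.runit _⟩

theorem tw_rep (a b : Pic X) : Nonempty (tw a (rep b) ≅ rep (a * b)) := by
  obtain ⟨e⟩ := tw_unit b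
  obtain ⟨e1⟩ := tw_iso a e
  obtain ⟨e2⟩ := tw_mul a b (Coh.structureModule X)
  obtain ⟨e3⟩ := tw_unit (a * b)
  exact ⟨e1.symm ≪≫ e2.symm ≪≫ e3⟩

theorem tw_inv_tw (a : Pic X) (F : X.Modules) : Nonempty (tw a⁻¹ (tw a F) ≅ F) := by
  obtain ⟨e⟩ := tw_mul a⁻¹ a F
  rw [inv_mul_cancel] at e
  obtain ⟨e1⟩ := tw_one F
  exact ⟨e.symm ≪≫ e1⟩

/-- The exact sequence `a ⊗ S`. -/
noncomputable abbrev twS (a : Pic X) (S : ShortComplex X.Modules) : ShortComplex X.Modules :=
  S.map (DCoh.tensorBi.obj (rep a))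

theorem tw_shortExact (a : Pic X) {S : ShortComplex X.Modules} (hS : S.ShortExact) : (twS a S).ShortExact :=
  Fga.TwistCoh.shortExact_tensorBi (rep_inv a) S hS

theorem twS_X₁ (a : Pic X) (S : ShortComplex X.Modules) : (twS a S).X₁ = tw a S.X₁ := rfl
theorem twS_X₂ (a : Pic X) (S : ShortComplex X.Modules) : (twS a S).X₂ = tw a S.X₂ := rfl
theorem twS_X₃ (a : Pic X) (S : ShortComplex X.Modules) : (twS a S).X₃ = tw a S.X₃ := rfl

theorem tw_coh (a : Pic X) {F : X.Modules} (hF : Coh.IsCoh F) : Coh.IsCoh (tw a F) :=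
  Sga67.CohBasic.isCoh_of_iso (Tens.swap F _) (Fga.TwistCoh.isCoh_tensor hF (rep_inv a))

theorem tw_isZero (a : Pic X) {F : X.Modules} (hF : IsZero F) : IsZero (tw a F) :=
  Functor.map_isZero (DCoh.tensorBi.obj (rep a)) hF

theorem support_tw (a : Pic X) (F : X.Modules) : CohB1.support (tw a F) = CohB1.support F := by
  have key : ∀ (a : Pic X) (F : X.Modules), CohB1.support (tw a F) ⊆ CohB1.support F := fun a F => by
    rw [tw, CohqB.DevSupport.support_congr (Tens.swap _ F)]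
    exact Fga.TwistCoh.support_tensor_subset (rep_inv a)
  refine (key a F).antisymm ?_
  obtain ⟨e⟩ := tw_inv_tw a F
  rw [← CohqB.DevSupport.support_congr e]
  exact key _ _

theorem rep_coh [IsLocallyNoetherian X] (a : Pic X) : Coh.IsCoh (rep a) := by
  obtain ⟨e⟩ := tw_unit a
  exact Sga67.CohBasic.isCoh_of_iso e (tw_coh a (Fdesc.StructMod.isCoh_structureModule X))

end Basic

end Groth.Agent.Pic13.H116.Tw
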